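import Mathlib

/-!
# S3510, row F, box G1 (helper595): the quadratic subfield of a finite field with an involution
-/

set_option autoImplicit false

namespace Cfsg.Agent.H595.RC

open Module

/-- a finite field with an involution `τ` over `F` contains the field with `q²` elements -/
theorem exists_quad {F K : Type} [Field F] [Finite F] [Field K] [Finite K] [Algebra F K] (τ : K ≃ₐ[F] K)
    (h2 : ∀ x, τ (τ x) = x) (h1 : ∃ x, τ x ≠ x) :
    ∃ (κ : K) (s t : F), κ * κ = s • κ - t • 1 ∧ (∀ a : F, a * a - s * a + t ≠ 0) ∧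
      (∀ a : F, κ ≠ a • 1) ∧ ((τ κ = κ ∧ ∀ x, τ x ≠ x → ∀ a b c d : F,
        a • 1 + b • κ + c • x + d • (κ * x) = 0 → a = 0 ∧ b = 0 ∧ c = 0 ∧ d = 0) ∨
        (κ * τ κ = t • 1 ∧ τ κ = s • 1 - κ)) := by
  classical
  obtain ⟨p, hp⟩ := CharP.exists F
  have hpp : Fact p.Prime := ⟨CharP.char_is_prime F p⟩
  have hfin : FiniteDimensional F K := Module.Finite.of_finite
  -- the degree is even
  have hdvd : 2 ∣ finrank F K := by
    rw [← IsGalois.card_aut_eq_finrank F K]
    have ho : orderOf τ = 2 := by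
      apply orderOf_eq_prime
      · ext x
        rw [pow_two]
        exact h2 x
      · rintro rfl
        obtain ⟨x, hx⟩ := h1
        exact hx rfl
    rw [← ho]
    exact orderOf_dvd_natCard τ
  let L := FiniteField.Extension F p 2
  have hL : finrank F L = 2 := FiniteField.finrank_extension F p 2
  obtain ⟨φ⟩ : Nonempty (L →ₐ[F] K) := FiniteField.nonempty_algHom_of_finrank_dvd (by rw [hL]; exact hdvd)
  -- an element outside of `F`
  obtain ⟨κ, hκ⟩ : ∃ κ : L, ∀ a : F, κ ≠ a • 1 := by
    by_contra hno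
    push Not at hno
    have h3 : finrank F L ≤ 1 := finrank_le_one (1 : L) fun w => by
      obtain ⟨a, ha⟩ := hno w
      exact ⟨a, ha.symm⟩
    omega
  have hsp : ∃ s t : F, κ * κ = s • κ - t • 1 := by
    have h3 : ¬ LinearIndependent F ![(1 : L), κ, κ * κ] := by
      intro h
      have := h.fintype_card_le_finrank
      rw [hL] at this
      simp at this
    rw [Fintype.linearIndependent_iff] at h3
    push Not at h3
    obtain ⟨g, hg, i, hi⟩ := h3
    simp only [Fin.sum_univ_three, Matrix.cons_val_zero, Matrix.cons_val_one, Matrix.cons_val] at hg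
    have hg2 : g 2 ≠ 0 := by
      intro h0
      rw [h0, zero_smul, add_zero] at hg
      by_cases h10 : g 1 = 0
      · rw [h10, zero_smul, add_zero] at hg
        have h00 : g 0 = 0 := by
          rcases smul_eq_zero.mp hg with h | h
          · exact h
          · exact absurd h one_ne_zero
        fin_cases i
        · exact hi h00
        · exact hi h10
        · exact hi h0
      · apply hκ (-(g 1)⁻¹ * g 0)
        have h4 : g 1 • κ = -(g 0 • (1 : L)) := by
          rw [eq_neg_iff_add_eq_zero, add_comm]; exact hg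
        have h5 : κ = (g 1)⁻¹ • (g 1 • κ) := by rw [smul_smul, inv_mul_cancel₀ h10, one_smul]
        rw [h5, h4, smul_neg, smul_smul, neg_mul, neg_smul]
    refine ⟨-(g 2)⁻¹ * g 1, (g 2)⁻¹ * g 0, ?_⟩
    have h4 : g 2 • (κ * κ) = -(g 1 • κ) - g 0 • (1 : L) := by
      rw [← sub_eq_zero, ← hg]; abel
    have h5 : κ * κ = (g 2)⁻¹ • (g 2 • (κ * κ)) := by rw [smul_smul, inv_mul_cancel₀ hg2, one_smul]
    rw [h5, h4, smul_sub, smul_neg, smul_smul, smul_smul, neg_mul, neg_smul]
  obtain ⟨s, t, hst⟩ := hsp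
  have hirr : ∀ a : F, a * a - s * a + t ≠ 0 := by
    intro a ha
    have h3 : (κ - a • 1) * (κ - (s - a) • 1) = 0 := by
      have h4 : (κ - a • 1) * (κ - (s - a) • 1) = κ * κ - s • κ + (a * (s - a)) • (1 : L) := by
        simp only [Algebra.smul_def, mul_one, map_sub, map_mul]
        ring
      rw [h4, hst]
      have h5 : a * (s - a) = t := by linear_combination -ha
      rw [h5]
      abel
    rcases mul_eq_zero.mp h3 with h | h
    · exact hκ _ (sub_eq_zero.mp h)
    · exact hκ _ (sub_eq_zero.mp h)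
  have hφ : φ κ * φ κ = s • φ κ - t • 1 := by
    rw [← map_mul, hst, map_sub, map_smul, map_smul, map_one]
  have hnF : ∀ a : F, φ κ ≠ a • 1 := by
    intro a ha
    apply hκ a
    have hinj : Function.Injective φ := (φ : L →+* K).injective
    apply hinj
    rw [ha, map_smul, map_one]
  have hzero : ∀ a b : F, a • 1 + b • φ κ = 0 → a = 0 ∧ b = 0 := by
    intro a b hab
    have hb : b = 0 := by
      by_contra hb
      apply hnF (-(b⁻¹ * a))
      have h3 : b • φ κ = -(a • (1 : K)) := by rw [eq_neg_iff_add_eq_zero, add_comm]; exact hab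
      have h4 : φ κ = b⁻¹ • (b • φ κ) := by rw [smul_smul, inv_mul_cancel₀ hb, one_smul]
      rw [h4, h3, smul_neg, smul_smul, neg_smul]
    rw [hb, zero_smul, add_zero] at hab
    rcases smul_eq_zero.mp hab with h | h
    · exact ⟨h, hb⟩
    · exact absurd h one_ne_zero
  refine ⟨φ κ, s, t, hφ, hirr, hnF, ?_⟩
  · have hτ : τ (φ κ) * τ (φ κ) = s • τ (φ κ) - t • 1 := by
      rw [← map_mul, hφ, map_sub, map_smul, map_smul, map_one]
    have h3 : (τ (φ κ) - φ κ) * (τ (φ κ) - (s • 1 - φ κ)) = 0 := by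
      have h4 : (τ (φ κ) - φ κ) * (τ (φ κ) - (s • 1 - φ κ))
          = τ (φ κ) * τ (φ κ) - s • τ (φ κ) - (φ κ * φ κ - s • φ κ) := by
        simp only [Algebra.smul_def, mul_one]
        ring
      rw [h4, hτ, hφ]
      abel
    rcases mul_eq_zero.mp h3 with h | h
    · left
      have hτκ := sub_eq_zero.mp h
      refine ⟨hτκ, fun x hx a b c d habcd => ?_⟩
      have h4 : c • 1 + d • φ κ = 0 := by
        by_contra hy
        apply hx
        have h5 : x = -((c • 1 + d • φ κ)⁻¹ * (a • 1 + b • φ κ)) := by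
          have h6 : (c • 1 + d • φ κ) * x = -(a • 1 + b • φ κ) := by
            rw [eq_neg_iff_add_eq_zero, ← habcd]
            simp only [Algebra.smul_def, mul_one]
            ring
          rw [← mul_neg, ← h6, inv_mul_cancel_left₀ hy]
        rw [h5, map_neg, map_mul, map_inv₀, map_add, map_add, map_smul, map_smul, map_smul, map_smul, map_one, hτκ]
      have h7 : a • 1 + b • φ κ = 0 := by
        have h8 : a • 1 + b • φ κ + (c • 1 + d • φ κ) * x = 0 := by
          rw [← habcd]
          simp only [Algebra.smul_def, mul_one]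
          ring
        rw [h4, zero_mul, add_zero] at h8
        exact h8
      exact ⟨(hzero a b h7).1, (hzero a b h7).2, (hzero c d h4).1, (hzero c d h4).2⟩
    · right
      have h4 := sub_eq_zero.mp h
      refine ⟨?_, h4⟩
      rw [h4, mul_sub, mul_smul_comm, mul_one, hφ]
      abel

/-- the same for a commutative ring which is a field -/
theorem exists_quad' {F A : Type} [Field F] [Finite F] [CommRing A] [Finite A] [Algebra F A] (hA : IsField A)
    (τ : A ≃ₐ[F] A) (h2 : ∀ x, τ (τ x) = x) (h1 : ∃ x, τ x ≠ x) :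
    ∃ (κ : A) (s t : F), κ * κ = s • κ - t • 1 ∧ (∀ a : F, a * a - s * a + t ≠ 0) ∧
      (∀ a : F, κ ≠ a • 1) ∧ ((τ κ = κ ∧ ∀ x, τ x ≠ x → ∀ a b c d : F,
        a • 1 + b • κ + c • x + d • (κ * x) = 0 → a = 0 ∧ b = 0 ∧ c = 0 ∧ d = 0) ∨
        (κ * τ κ = t • 1 ∧ τ κ = s • 1 - κ)) :=
  @exists_quad F A _ _ hA.toField _ _ τ h2 h1

end Cfsg.Agent.H595.RC
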